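import Cfsg.Agent.H49.JC.Syl
import Cfsg.Agent.H47.Syl
import Cfsg.Agent.H34.Thompson
import Cfsg.Prelude.Def_BaumannBlocks

/-!
# Baumann subgroups: weak closure, blocks: first properties
-/

set_option autoImplicit false
set_option linter.style.haveILetI false
set_option linter.unusedSectionVars false

namespace Cfsg.Agent.H49.BB

open Subgroup Cfsg JC H47
open scoped commutatorElement

variable {G : Type*} [Group G] {p : ℕ}

/-- `Ω₁(Z(J(T)))`. -/
abbrev ZJ (p : ℕ) (T : Subgroup G) : Subgroup G := omegaOne p (centerThompsonOf p T)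

/-- the Baumann subgroup -/
abbrev BT (p : ℕ) (T : Subgroup G) : Subgroup G := baumannSubgroupOf p T

/-- the Thompson subgroup -/
abbrev JT (p : ℕ) (T : Subgroup G) : Subgroup G := thompsonSubgroupOf p T

theorem omegaOne_le {H : Subgroup G} : omegaOne p H ≤ H := (closure_le _).2 fun _ hx => hx.1

theorem map_omegaOne {H : Type*} [Group H] (f : G →* H) (hf : Function.Injective f)
    (X : Subgroup G) : (omegaOne p X).map f = omegaOne p (X.map f) := by
  unfold omegaOne
  rw [MonoidHom.map_closure]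
  congr 1
  ext x
  constructor
  · rintro ⟨y, ⟨hy, hy2⟩, rfl⟩
    exact ⟨⟨y, hy, rfl⟩, by rw [← map_pow, hy2, map_one]⟩
  · rintro ⟨⟨y, hy, rfl⟩, h2⟩
    refine ⟨y, ⟨hy, hf ?_⟩, rfl⟩
    rw [map_pow, h2, map_one]

theorem BT_le {T : Subgroup G} : BT p T ≤ T := inf_le_left

theorem JT_le {T : Subgroup G} : JT p T ≤ T := H34.thompsonSubgroupOf_le p T

theorem ZJ_le_JT {T : Subgroup G} : ZJ p T ≤ JT p T := omegaOne_le.trans inf_le_left

theorem JT_le_centralizer_ZJ {T : Subgroup G} : JT p T ≤ centralizer (ZJ p T : Set G) := by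
  rw [le_centralizer_iff]
  exact omegaOne_le.trans inf_le_right

theorem JT_le_BT {T : Subgroup G} : JT p T ≤ BT p T := le_inf JT_le JT_le_centralizer_ZJ

theorem ZJ_le_BT {T : Subgroup G} : ZJ p T ≤ BT p T := ZJ_le_JT.trans JT_le_BT

theorem cj_JT {T : Subgroup G} {g : G} : cj g (JT p T) = JT p (cj g T) :=
  JC.thompson_map (MulAut.conj g).toMonoidHom (MulAut.conj g).injective T

theorem cj_ZJ {T : Subgroup G} {g : G} : cj g (ZJ p T) = ZJ p (cj g T) := by
  change (omegaOne p (centerThompsonOf p T)).map (MulAut.conj g).toMonoidHom = _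
  rw [map_omegaOne _ (MulAut.conj g).injective]
  change omegaOne p (cj g (JT p T ⊓ centralizer (JT p T : Set G))) =
    omegaOne p (JT p (cj g T) ⊓ centralizer (JT p (cj g T) : Set G))
  rw [cj_inf, cj_centralizer, cj_JT]

theorem cj_BT {T : Subgroup G} {g : G} : cj g (BT p T) = BT p (cj g T) := by
  change cj g (T ⊓ centralizer (ZJ p T : Set G)) = cj g T ⊓ centralizer (ZJ p (cj g T) : Set G)
  rw [cj_inf, cj_centralizer, cj_ZJ]

theorem normalizer_le_JT {T : Subgroup G} :
    normalizer (T : Set G) ≤ normalizer (JT p T : Set G) := by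
  intro g hg
  rw [mem_normalizer_iff_cj] at hg ⊢
  rw [cj_JT, hg]

theorem normalizer_le_ZJ {T : Subgroup G} :
    normalizer (T : Set G) ≤ normalizer (ZJ p T : Set G) := by
  intro g hg
  rw [mem_normalizer_iff_cj] at hg ⊢
  rw [cj_ZJ, hg]

theorem normalizer_le_BT {T : Subgroup G} :
    normalizer (T : Set G) ≤ normalizer (BT p T : Set G) := by
  intro g hg
  rw [mem_normalizer_iff_cj] at hg ⊢
  rw [cj_BT, hg]

theorem le_normalizer_BT_self {T : Subgroup G} : T ≤ normalizer (BT p T : Set G) :=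
  le_normalizer.trans normalizer_le_BT

theorem ZJ_congr {S T : Subgroup G} (h : JT p S = JT p T) : ZJ p S = ZJ p T := by
  change omegaOne p (JT p S ⊓ centralizer (JT p S : Set G)) =
    omegaOne p (JT p T ⊓ centralizer (JT p T : Set G))
  rw [h]

theorem isElementaryAbelian_cj {g : G} {A : Subgroup G} (h : IsElementaryAbelian p A) :
    IsElementaryAbelian p (cj g A) := H34.isElementaryAbelian_map _ h

theorem maxEA_le_JT {T A : Subgroup G} (hA : A ∈ H34.maxEA p T) : A ≤ JT p T := by
  change A ≤ thompsonSubgroupOf p T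
  rw [H34.thompsonSubgroupOf_eq]
  exact le_sSup hA

theorem JT_le_iff {T X : Subgroup G} : JT p T ≤ X ↔ ∀ A ∈ H34.maxEA p T, A ≤ X := by
  change thompsonSubgroupOf p T ≤ X ↔ _
  rw [H34.thompsonSubgroupOf_eq, sSup_le_iff]

variable [Finite G]

theorem JT_eq_of_le {S T : Subgroup G} (hST : S ≤ T) (h : JT p T ≤ S) : JT p S = JT p T :=
  H34.thompsonSubgroupOf_eq_of_le p hST fun _ hA => (maxEA_le_JT hA).trans h

theorem BT_eq_of_le {S T : Subgroup G} (hST : S ≤ T) (h : BT p T ≤ S) : BT p S = BT p T := by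
  have h1 : JT p S = JT p T := JT_eq_of_le hST (JT_le_BT.trans h)
  have h2 : ZJ p S = ZJ p T := ZJ_congr h1
  apply le_antisymm
  · refine le_inf (BT_le.trans hST) ?_
    change BT p S ≤ centralizer (ZJ p T : Set G)
    rw [← h2]
    exact inf_le_right
  · refine le_inf h ?_
    change BT p T ≤ centralizer (ZJ p S : Set G)
    rw [h2]
    exact inf_le_right

/-- weak closure of the Thompson subgroup -/
theorem JT_weak {T : Subgroup G} {g : G} (h : JT p T ≤ cj g T) : JT p (cj g T) = JT p T := by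
  have h1 : ∀ A ∈ H34.maxEA p T, A ∈ H34.maxEA p (cj g T) := by
    rintro A hA
    refine ⟨(maxEA_le_JT hA).trans h, hA.2.1, fun B hB hB2 => ?_⟩
    have h2 := hA.2.2 (cj g⁻¹ B) (by rw [cj_le_iff, inv_inv]; exact hB) (isElementaryAbelian_cj hB2)
    rwa [card_cj] at h2
  have h2 : JT p T ≤ JT p (cj g T) := JT_le_iff.2 fun A hA => maxEA_le_JT (h1 A hA)
  refine (Subgroup.eq_of_le_of_card_ge h2 ?_).symm
  rw [← cj_JT, card_cj]

/-- weak closure of the Baumann subgroup -/
theorem BT_weak {T : Subgroup G} {g : G} (h : BT p T ≤ cj g T) : BT p (cj g T) = BT p T := by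
  have h1 : JT p (cj g T) = JT p T := JT_weak (JT_le_BT.trans h)
  have h2 : ZJ p (cj g T) = ZJ p T := ZJ_congr h1
  have h3 : BT p T ≤ BT p (cj g T) := by
    refine le_inf h ?_
    change BT p T ≤ centralizer (ZJ p (cj g T) : Set G)
    rw [h2]
    exact inf_le_right
  refine (Subgroup.eq_of_le_of_card_ge h3 ?_).symm
  rw [← cj_BT, card_cj]

variable [Fact p.Prime]

/-- A `p`-group containing the Baumann subgroup of a Sylow subgroup. -/
theorem BT_of_le {T L S : Subgroup G} (hT : H47.SylIn p T L) (hSL : S ≤ L) (hS : IsPGroup p S)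
    (h : BT p T ≤ S) : BT p S = BT p T ∧ S ≤ normalizer (BT p T : Set G) := by
  obtain ⟨g, hg, hgS⟩ := hT.exists_conj_le hSL hS
  have h1 : S ≤ cj g⁻¹ T := by rw [← cj_le_cj (g := g), cj_cj_inv]; exact hgS
  have h2 : BT p (cj g⁻¹ T) = BT p T := BT_weak (h.trans h1)
  constructor
  · rw [← h2]
    exact BT_eq_of_le h1 (by rw [h2]; exact h)
  · rw [← h2]
    exact h1.trans le_normalizer_BT_self

theorem BT_of_le_sylow (T : Sylow p G) {S : Subgroup G} (hS : IsPGroup p S)
    (h : BT p (T : Subgroup G) ≤ S) :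
    BT p S = BT p (T : Subgroup G) ∧ S ≤ normalizer (BT p (T : Subgroup G) : Set G) :=
  BT_of_le (H47.sylIn_top T) le_top hS h

end Cfsg.Agent.H49.BB
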