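import Cfsg.Agent.H49.BB.Irr
import Cfsg.Agent.H47.Cop

/-!
# Blocks: location of `W_E`
-/

set_option autoImplicit false
set_option linter.style.haveILetI false
set_option linter.unusedSectionVars false

namespace Cfsg.Agent.H49.BB

open Subgroup Cfsg JC H47
open scoped commutatorElement

section omega

variable {G : Type*} [Group G] {p : ℕ}

/-- `Ω₁(Z(X))` -/
abbrev OZ (p : ℕ) (X : Subgroup G) : Subgroup G := omegaOneCenter p X

theorem mem_OZ {X : Subgroup G} {x : G} :
    x ∈ OZ p X ↔ x ∈ X ∧ (∀ y ∈ X, y * x = x * y) ∧ x ^ p = 1 := by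
  constructor
  · intro hx
    change x ∈ omegaOne p (X ⊓ centralizer (X : Set G)) at hx
    unfold omegaOne at hx
    induction hx using Subgroup.closure_induction with
    | mem x h =>
      obtain ⟨h1, h2⟩ := h
      exact ⟨(JC.mem_inf_centralizer.1 h1).1, (JC.mem_inf_centralizer.1 h1).2, h2⟩
    | one => exact ⟨one_mem _, by simp, by simp⟩
    | mul x y _ _ hx hy =>
      obtain ⟨hx1, hx2, hx3⟩ := hx
      obtain ⟨hy1, hy2, hy3⟩ := hy
      refine ⟨mul_mem hx1 hy1, ?_, ?_⟩
      · intro z hz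
        rw [← mul_assoc, hx2 z hz, mul_assoc, hy2 z hz, mul_assoc]
      · have hc : Commute x y := hy2 x hx1
        rw [hc.mul_pow, hx3, hy3, one_mul]
    | inv x _ hx =>
      obtain ⟨hx1, hx2, hx3⟩ := hx
      refine ⟨inv_mem hx1, ?_, ?_⟩
      · intro z hz
        have hc : Commute z x := hx2 z hz
        exact hc.inv_right
      · rw [inv_pow, hx3, inv_one]
  · rintro ⟨h1, h2, h3⟩
    exact Subgroup.subset_closure ⟨JC.mem_inf_centralizer.2 ⟨h1, h2⟩, h3⟩

theorem OZ_le {X : Subgroup G} : OZ p X ≤ X := fun _ hx => (mem_OZ.1 hx).1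

theorem OZ_le_centralizer {X : Subgroup G} : OZ p X ≤ centralizer (X : Set G) := fun _ hx =>
  mem_centralizer_iff.2 (mem_OZ.1 hx).2.1

theorem le_centralizer_OZ {X : Subgroup G} : X ≤ centralizer (OZ p X : Set G) := by
  rw [Subgroup.le_centralizer_iff]
  exact OZ_le_centralizer

theorem isElementaryAbelian_OZ {X : Subgroup G} : IsElementaryAbelian p (OZ p X) := by
  rw [H34.isElementaryAbelian_iff]
  refine ⟨fun a ha b hb => ?_, fun a ha => (mem_OZ.1 ha).2.2⟩
  exact (mem_OZ.1 hb).2.1 a (mem_OZ.1 ha).1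

theorem isPGroup_of_elementary {A : Subgroup G} (h : IsElementaryAbelian p A) : IsPGroup p A := by
  intro a
  exact ⟨1, Subtype.ext (by simpa using h.2 a a.2)⟩

theorem le_OZ {X A : Subgroup G} (h1 : A ≤ X) (h2 : A ≤ centralizer (X : Set G))
    (h3 : ∀ a ∈ A, a ^ p = 1) : A ≤ OZ p X := fun a ha =>
  mem_OZ.2 ⟨h1 ha, mem_centralizer_iff.1 (h2 ha), h3 a ha⟩

theorem cj_OZ {X : Subgroup G} {g : G} : cj g (OZ p X) = OZ p (cj g X) := by
  change (omegaOne p (X ⊓ centralizer (X : Set G))).map (MulAut.conj g).toMonoidHom = _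
  rw [map_omegaOne _ (MulAut.conj g).injective]
  change omegaOne p (cj g (X ⊓ centralizer (X : Set G))) = omegaOne p _
  rw [cj_inf, cj_centralizer]

theorem normalizer_le_OZ {X : Subgroup G} :
    normalizer (X : Set G) ≤ normalizer (OZ p X : Set G) := by
  intro g hg
  rw [mem_normalizer_iff_cj] at hg ⊢
  rw [cj_OZ, hg]

end omega

variable {G : Type*} [Group G] {p : ℕ}

theorem mem_of_centralizes {T A : Subgroup G} (hA : A ∈ H34.maxEA p T) {x : G} (hx : x ∈ T)
    (hx2 : x ^ p = 1) (hc : ∀ a ∈ A, x * a = a * x) [Finite G] : x ∈ A := by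
  have hAe := (H34.isElementaryAbelian_iff p A).1 hA.2.1
  have h1 : IsElementaryAbelian p (A ⊔ zpowers x) := by
    have hcl : A ⊔ zpowers x = closure ((A : Set G) ∪ {x}) := by
      rw [Subgroup.closure_union, Subgroup.closure_eq, Subgroup.zpowers_eq_closure]
    have hcomm : ∀ a ∈ (A : Set G) ∪ {x}, ∀ b ∈ (A : Set G) ∪ {x}, a * b = b * a := by
      rintro a (ha | ha) b (hb | hb)
      · exact hAe.1 a ha b hb
      · rw [Set.mem_singleton_iff] at hb; subst hb; exact (hc a ha).symm
      · rw [Set.mem_singleton_iff] at ha; subst ha; exact hc b hb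
      · rw [Set.mem_singleton_iff] at ha hb; rw [ha, hb]
    rw [H34.isElementaryAbelian_iff, hcl]
    have h2 : ∀ a ∈ closure ((A : Set G) ∪ {x}), ∀ b ∈ closure ((A : Set G) ∪ {x}),
        a * b = b * a := by
      intro a ha b hb
      have h3 : closure ((A : Set G) ∪ {x}) ≤ centralizer ((A : Set G) ∪ {x}) := by
        rw [Subgroup.closure_le]
        intro c hc
        rw [SetLike.mem_coe, mem_centralizer_iff]
        intro d hd
        exact hcomm d hd c hc
      have h4 : closure ((A : Set G) ∪ {x}) ≤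
          centralizer (closure ((A : Set G) ∪ {x}) : Set G) := by
        rw [Subgroup.centralizer_closure]; exact h3
      exact (mem_centralizer_iff.1 (h4 ha) b hb).symm
    refine ⟨h2, ?_⟩
    intro a ha
    induction ha using Subgroup.closure_induction with
    | mem y hy =>
      rcases hy with hy | hy
      · exact hAe.2 y hy
      · rw [Set.mem_singleton_iff] at hy; rw [hy]; exact hx2
    | one => simp
    | mul y z hy hz iy iz =>
      have hyz : Commute y z := h2 y hy z hz
      rw [hyz.mul_pow, iy, iz, one_mul]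
    | inv y _ iy => rw [inv_pow, iy, inv_one]
  have h2 : A ⊔ zpowers x ≤ T := sup_le hA.1 (by rwa [zpowers_le])
  have h3 := hA.2.2 _ h2 h1
  have h4 := Subgroup.eq_of_le_of_card_ge (le_sup_left : A ≤ A ⊔ zpowers x) h3
  rw [h4]
  exact mem_sup_right (mem_zpowers x)

/-- An elementary abelian subgroup of `T` centralized by `J(T)` lies in `Ω₁(Z(J(T)))`. -/
theorem le_ZJ_of_centralized [Finite G] {T U : Subgroup G} (hUT : U ≤ T)
    (hU : ∀ u ∈ U, u ^ p = 1) (hc : JT p T ≤ centralizer (U : Set G)) : U ≤ ZJ p T := by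
  have h1 : ∀ A ∈ H34.maxEA p T, U ≤ A := by
    intro A hA u hu
    refine mem_of_centralizes hA (hUT hu) (hU u hu) fun a ha => ?_
    exact mem_centralizer_iff.1 (hc (maxEA_le_JT hA ha)) u hu
  obtain ⟨A, hA⟩ := H34.maxEA_nonempty p T
  intro u hu
  refine Subgroup.subset_closure ⟨mem_inf.2 ⟨maxEA_le_JT hA (h1 A hA hu), ?_⟩, hU u hu⟩
  rw [mem_centralizer_iff]
  intro y hy
  exact (mem_centralizer_iff.1 (hc hy) u hu).symm

variable [Finite G] [Fact p.Prime]

/-- The part of the definition of a block used at first. -/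
structure Blk (p : ℕ) (T E : Subgroup G) : Prop where
  res : pRes p E = E
  comm : ⁅E, BT p T⁆ = E
  core : ⁅pCoreOf p E, E⁆ = pCoreOf p E
  ne : ⁅E, OZ p T⁆ ≠ ⊥
  irr : IrrOn E (OZ p (pCoreOf p E)) (OZ p (pCoreOf p E) ⊓ centralizer (E : Set G))
  alt : pCoreOf p E = OZ p (pCoreOf p E) ∨
    (IrrOn E (pCoreOf p E) (OZ p (pCoreOf p E)) ∧ ⁅pCoreOf p E, pCoreOf p E⁆ ≠ ⊥)

theorem blk_of {T E : Subgroup G} (h : IsBaumannBlock p T E) : Blk p T E := by
  obtain ⟨h1, h2, h3, h4, h5⟩ := h
  rcases h5 with ⟨F, _, _, n, hF, h6, h7, h8⟩ | ⟨hp2, m, h6, h7, h8⟩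
  · refine ⟨h1, h2, h3, h4, IrrOn.of_SL2 h7, ?_⟩
    rcases h8 with h8 | ⟨hp3, h9, h10, h11, h12, h13, h14⟩
    · exact Or.inl h8
    · refine Or.inr ⟨IrrOn.of_SL2 h9, ?_⟩
      intro hbot
      rw [h10] at hbot
      rw [h12, hbot, Subgroup.card_bot] at h13
      have h15 : 1 < Fintype.card F := Fintype.one_lt_card
      rw [hF, hp3, ← h13] at h15
      exact lt_irrefl _ h15
  · exact ⟨h1, h2, h3, h4, IrrOn.of_perm h7, Or.inl h8⟩

theorem Blk.BT_le_normalizer {T E : Subgroup G} (h : Blk p T E) :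
    BT p T ≤ normalizer (E : Set G) := le_normalizer_of_commutator_le h.comm.le

/-- `W_E = [Ω₁(Z(O_p(E))), E]`. -/
abbrev WE (p : ℕ) (E : Subgroup G) : Subgroup G := ⁅OZ p (pCoreOf p E), E⁆

theorem WE_le_OZ {E : Subgroup G} : WE p E ≤ OZ p (pCoreOf p E) := by
  rw [← le_normalizer_iff_commutator_le_left]
  exact (le_normalizer_pCoreOf p E).trans normalizer_le_OZ

theorem normalizer_le_WE {E : Subgroup G} :
    normalizer (E : Set G) ≤ normalizer (WE p E : Set G) := by
  intro g hg
  have h1 : g ∈ normalizer (OZ p (pCoreOf p E) : Set G) :=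
    normalizer_le_OZ (le_normalizer_pCoreOf_of_le le_rfl hg)
  rw [mem_normalizer_iff_cj] at hg h1 ⊢
  rw [cj_commutator, hg, h1]

/-- Main lemma: if `V` is an elementary abelian `p`-subgroup with `[V, E] ≤ E` normalized by `E`
and not centralized by `E`, then `[V, E] = W_E`. -/
theorem Blk.comm_eq {T E V : Subgroup G} (h : Blk p T E) (hV : IsElementaryAbelian p V)
    (hEV : E ≤ normalizer (V : Set G)) (hVE : V ≤ normalizer (E : Set G))
    (hne : ¬ V ≤ centralizer (E : Set G)) : ⁅V, E⁆ = WE p E ∧ ⁅WE p E, E⁆ = WE p E ∧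
      WE p E ≠ ⊥ ∧ WE p E ⊔ (OZ p (pCoreOf p E) ⊓ centralizer (E : Set G)) = OZ p (pCoreOf p E) := by
  have hVp : IsPGroup p V := isPGroup_of_elementary hV
  have h1 : ⁅V, E⁆ ≤ V := le_normalizer_iff_commutator_le_left.1 hEV
  have h2 : ⁅V, E⁆ ≤ E := by
    rw [commutator_comm]; exact le_normalizer_iff_commutator_le_left.1 hVE
  have h3 : E ≤ normalizer ((⁅V, E⁆ : Subgroup G) : Set G) := normalizer_commutator_ge_right _ _
  have h4 : ⁅V, E⁆ ≤ pCoreOf p E := le_pCoreOf h2 h3 (hVp.to_le h1)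
  have h5 : ⁅⁅V, E⁆, E⁆ = ⁅V, E⁆ := commutator_commutator_pRes h.res (hVp.to_le h1)
  have h6 : ⁅V, E⁆ ≠ ⊥ := by
    intro h6
    apply hne
    rwa [← commutator_eq_bot_iff_le_centralizer]
  -- `[V, E] ≤ W`
  have hVE' : IsElementaryAbelian p ⁅V, E⁆ := H34.isElementaryAbelian_mono h1 hV
  have h7 : ⁅V, E⁆ ≤ OZ p (pCoreOf p E) := by
    rcases h.alt with h8 | ⟨h8, h9⟩
    · rw [← h8]; exact h4
    · have hWn : E ≤ normalizer ((⁅V, E⁆ ⊔ OZ p (pCoreOf p E) : Subgroup G) : Set G) :=
        (le_inf h3 h.irr.nE).trans (by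
          intro g hg
          rw [mem_inf, mem_normalizer_iff_cj, mem_normalizer_iff_cj] at hg
          rw [mem_normalizer_iff_cj, cj_sup, hg.1, hg.2])
      rcases h8.irr (⁅V, E⁆ ⊔ OZ p (pCoreOf p E)) le_sup_right (sup_le h4 OZ_le) hWn with h10 | h10
      · rw [← h10]; exact le_sup_left
      · exfalso
        apply h9
        rw [commutator_eq_bot_iff_le_centralizer]
        conv_lhs => rw [← h10]
        refine sup_le ?_ OZ_le_centralizer
        rw [Subgroup.le_centralizer_iff]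
        conv_lhs => rw [← h10]
        refine sup_le ?_ ?_
        · intro x hx
          rw [mem_centralizer_iff]
          intro y hy
          exact (H34.isElementaryAbelian_iff p _).1 hVE' |>.1 y hy x hx
        · exact OZ_le_centralizer.trans (centralizer_le h4)
  set W := OZ p (pCoreOf p E) with hWdef
  set Z := W ⊓ centralizer (E : Set G) with hZdef
  have hZn : E ≤ normalizer ((⁅V, E⁆ ⊔ Z : Subgroup G) : Set G) := by
    have hZ1 : E ≤ normalizer (Z : Set G) := by
      intro g hg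
      have h8 : g ∈ normalizer (W : Set G) := h.irr.nE hg
      have h9 : g ∈ normalizer (E : Set G) := le_normalizer hg
      rw [mem_normalizer_iff_cj] at h8 h9 ⊢
      rw [hZdef, cj_inf, cj_centralizer, h8, h9]
    intro g hg
    have h8 := h3 hg
    have h9 := hZ1 hg
    rw [mem_normalizer_iff_cj] at h8 h9 ⊢
    rw [cj_sup, h8, h9]
  have h8 : ⁅V, E⁆ ⊔ Z = W := by
    rcases h.irr.irr (⁅V, E⁆ ⊔ Z) le_sup_right (sup_le h7 inf_le_left) hZn with h9 | h9
    · exfalso
      have h10 : ⁅V, E⁆ ≤ centralizer (E : Set G) := by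
        calc ⁅V, E⁆ ≤ ⁅V, E⁆ ⊔ Z := le_sup_left
          _ = Z := h9
          _ ≤ _ := inf_le_right
      rw [← commutator_eq_bot_iff_le_centralizer, h5] at h10
      exact h6 h10
    · exact h9
  have h9 : ⁅W, E⁆ = ⁅V, E⁆ := by
    apply le_antisymm
    · rw [commutator_le]
      intro w hw e he
      have hn : Z ≤ normalizer ((⁅V, E⁆ : Subgroup G) : Set G) := by
        have : Z ≤ centralizer ((⁅V, E⁆ : Subgroup G) : Set G) :=
          inf_le_left.trans (OZ_le_centralizer.trans (centralizer_le h4))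
        exact this.trans (centralizer_le_normalizer _)
      rw [← h8, sup_comm] at hw
      obtain ⟨z, hz, v, hv, rfl⟩ := (mem_sup_of_le_normalizer hn).1 hw
      have hze : z * e = e * z := ((mem_centralizer_iff.1 hz.2) e he).symm
      have hzv : z * v = v * z :=
        (mem_centralizer_iff.1 (OZ_le_centralizer (p := p) hz.1) v (h4 hv)).symm
      have h10 : ⁅z * v, e⁆ = ⁅v, e⁆ := by
        rw [commutatorElement_def, commutatorElement_def, hzv]
        calc v * z * e * (v * z)⁻¹ * e⁻¹ = v * (z * e) * z⁻¹ * v⁻¹ * e⁻¹ := by group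
          _ = v * e * v⁻¹ * e⁻¹ := by rw [hze]; group
      rw [h10, ← h5]
      exact commutator_mem_commutator hv he
    · conv_lhs => rw [← h5]
      exact commutator_mono h7 le_rfl
  refine ⟨h9.symm, ?_, ?_, ?_⟩
  · change ⁅⁅W, E⁆, E⁆ = ⁅W, E⁆
    rw [h9, h5]
  · change ⁅W, E⁆ ≠ ⊥
    rw [h9]; exact h6
  · change ⁅W, E⁆ ⊔ Z = W
    rw [h9]; exact h8

/-! ### Groups of characteristic `p` -/

section char

variable {T E : Subgroup G}

theorem OZ_le_pCore (hG : centralizer (pCore p G : Set G) ≤ pCore p G) (hT : H47.SylIn p T ⊤) :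
    OZ p T ≤ OZ p (pCore p G) := by
  have h1 : pCore p G ≤ T := by
    have := pCoreOf_le_sylIn hT
    rwa [pCoreOf_top] at this
  have h2 : OZ p T ≤ centralizer (pCore p G : Set G) :=
    OZ_le_centralizer.trans (centralizer_le h1)
  exact le_OZ (h2.trans hG) h2 fun a ha => (mem_OZ.1 ha).2.2

theorem pCore_normal' : (pCore p G).Normal := pCore_normal p G

theorem Blk.pCore_le_normalizer (hT : H47.SylIn p T ⊤) (h : Blk p T E) :
    pCore p G ≤ normalizer (E : Set G) := by
  haveI := pCore_normal p G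
  exact normalizes_of hT h.res h.comm le_top (H47.pCore_isPGroup p G)
    (by rw [normalizer_eq_top]; exact le_top) (by rw [normalizer_eq_top]; exact le_top)

theorem OZ_pCore_normal : (OZ p (pCore p G)).Normal := by
  haveI := pCore_normal p G
  rw [← normalizer_eq_top_iff, eq_top_iff]
  refine le_trans ?_ normalizer_le_OZ
  rw [normalizer_eq_top]

/-- location of `W_E` -/
theorem Blk.loc (hG : centralizer (pCore p G : Set G) ≤ pCore p G) (hT : H47.SylIn p T ⊤)
    (h : Blk p T E) : ⁅OZ p (pCore p G), E⁆ = WE p E ∧ ⁅WE p E, E⁆ = WE p E ∧ WE p E ≠ ⊥ ∧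
      WE p E ⊔ (OZ p (pCoreOf p E) ⊓ centralizer (E : Set G)) = OZ p (pCoreOf p E) := by
  haveI := OZ_pCore_normal (G := G) (p := p)
  refine h.comm_eq isElementaryAbelian_OZ (by rw [normalizer_eq_top]; exact le_top)
    (OZ_le.trans (h.pCore_le_normalizer hT)) ?_
  intro hcon
  apply h.ne
  rw [commutator_comm, commutator_eq_bot_iff_le_centralizer]
  exact (OZ_le_pCore hG hT).trans hcon

theorem Blk.WE_le (hG : centralizer (pCore p G : Set G) ≤ pCore p G) (hT : H47.SylIn p T ⊤)
    (h : Blk p T E) : WE p E ≤ OZ p (pCore p G) := by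
  haveI := OZ_pCore_normal (G := G) (p := p)
  rw [← (h.loc hG hT).1]
  exact commutator_le_left _ _

theorem Blk.not_JT_le (hG : centralizer (pCore p G : Set G) ≤ pCore p G) (hT : H47.SylIn p T ⊤)
    (h : Blk p T E) : ¬ JT p T ≤ centralizer (WE p E : Set G) := by
  intro hJ
  have h1 : pCore p G ≤ T := by
    have := pCoreOf_le_sylIn hT
    rwa [pCoreOf_top] at this
  have h2 : WE p E ≤ ZJ p T :=
    le_ZJ_of_centralized ((h.WE_le hG hT).trans (OZ_le.trans h1))
      (fun u hu => (mem_OZ.1 (h.WE_le hG hT hu)).2.2) hJ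
  have h3 : BT p T ≤ centralizer (WE p E : Set G) := by
    refine le_trans ?_ (centralizer_le h2)
    exact inf_le_right
  have h4 : E ≤ centralizer (WE p E : Set G) := by
    conv_lhs => rw [← h.comm]
    apply commutator_le_of_normalizes h3
    intro g hg
    have h5 : g ∈ normalizer (WE p E : Set G) := normalizer_le_WE (le_normalizer hg)
    rw [mem_normalizer_iff_cj] at h5 ⊢
    rw [cj_centralizer, h5]
  apply (h.loc hG hT).2.2.1
  rw [← (h.loc hG hT).2.1, commutator_eq_bot_iff_le_centralizer, Subgroup.le_centralizer_iff]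
  exact h4

end char

end Cfsg.Agent.H49.BB
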