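import Cfsg.Agent.H49.BB.Base

/-!
# Blocks: consequences of `E = O^p(E) = [E, B(T)]`
-/

set_option autoImplicit false
set_option linter.style.haveILetI false
set_option linter.unusedSectionVars false

namespace Cfsg.Agent.H49.BB

open Subgroup Cfsg JC H47
open scoped commutatorElement

variable {G : Type*} [Group G] {p : ℕ}

theorem le_normalizer_of_commutator_le {E B : Subgroup G} (h : ⁅E, B⁆ ≤ E) :
    B ≤ normalizer (E : Set G) := by
  have key : ∀ b ∈ B, ∀ e ∈ E, b * e * b⁻¹ ∈ E := by
    intro b hb e he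
    have h1 : ⁅e, b⁆⁻¹ ∈ E := inv_mem (h (commutator_mem_commutator he hb))
    have h2 : b * e * b⁻¹ = ⁅e, b⁆⁻¹ * e := by rw [commutatorElement_def]; group
    rw [h2]
    exact mul_mem h1 he
  intro b hb
  rw [mem_normalizer_iff]
  intro e
  refine ⟨key b hb e, fun he => ?_⟩
  have h3 := key b⁻¹ (inv_mem hb) _ he
  have h4 : b⁻¹ * (b * e * b⁻¹) * b⁻¹⁻¹ = e := by group
  rwa [h4] at h3

/-- a subgroup containing `B` and normalized by `E` contains `[E, B]` -/
theorem commutator_le_of_normalizes {E B X : Subgroup G} (hB : B ≤ X)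
    (hE : E ≤ normalizer (X : Set G)) : ⁅E, B⁆ ≤ X := by
  rw [commutator_le]
  intro e he b hb
  rw [commutatorElement_def]
  exact mul_mem ((mem_normalizer_iff.1 (hE he) b).1 (hB hb)) (inv_mem (hB hb))

theorem iSup_cj_eq {E B : Subgroup G} (h : ⁅E, B⁆ = E) : (⨆ e : E, cj (e : G) B) = E ⊔ B := by
  have hBL : B ≤ ⨆ e : E, cj (e : G) B := by
    have := le_iSup (fun e : E => cj (e : G) B) 1
    rwa [coe_one, cj_one] at this
  apply le_antisymm
  · apply iSup_le
    intro e
    have h1 : cj (e : G) (E ⊔ B) = E ⊔ B := cj_self (mem_sup_left e.2)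
    rw [← h1]
    exact cj_mono le_sup_right
  · refine sup_le ?_ hBL
    conv_lhs => rw [← h]
    apply commutator_le_of_normalizes hBL
    intro e he
    rw [mem_normalizer_iff_cj]
    have key : ∀ e ∈ E, cj e (⨆ e : E, cj (e : G) B) ≤ ⨆ e : E, cj (e : G) B := by
      intro e he
      change (⨆ e : E, cj (e : G) B).map (MulAut.conj e).toMonoidHom ≤ _
      rw [Subgroup.map_iSup]
      apply iSup_le
      intro e'
      change cj e (cj (e' : G) B) ≤ _
      rw [← cj_mul]
      exact le_iSup (fun e : E => cj (e : G) B) ((⟨e, he⟩ : E) * e')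
    apply le_antisymm (key e he)
    have h1 := cj_mono (g := e) (key e⁻¹ (inv_mem he))
    rwa [cj_cj_inv] at h1

variable [Finite G] [Fact p.Prime]

/-- `E = O^p(E B)` if `E = O^p(E)` is normalized by the `p`-group `B`. -/
theorem pRes_sup_eq {E B : Subgroup G} (hE : pRes p E = E) (hB : IsPGroup p B)
    (hn : B ≤ normalizer (E : Set G)) : pRes p (E ⊔ B) = E := by
  apply le_antisymm
  · apply pRes_le_of
    intro x hx
    rw [sup_comm] at hx
    exact pow_mem_of_sup hB hn hx
  · conv_lhs => rw [← hE]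
    exact pRes_mono le_sup_left

/-- Main observation: a `p`-subgroup normalized by `B(T)` and `E = O^p(E) = [E, B(T)]`
normalizes `E`. -/
theorem normalizes_of {T L E Q : Subgroup G} (hT : H47.SylIn p T L) (hres : pRes p E = E)
    (hcomm : ⁅E, BT p T⁆ = E) (hQL : Q ≤ L) (hQ : IsPGroup p Q)
    (hBQ : BT p T ≤ normalizer (Q : Set G)) (hEQ : E ≤ normalizer (Q : Set G)) :
    Q ≤ normalizer (E : Set G) := by
  have hTp : IsPGroup p (BT p T) := hT.isPGroup.to_le BT_le
  have hS : IsPGroup p (BT p T ⊔ Q : Subgroup G) :=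
    IsPGroup.to_sup_of_normal_right' hTp hQ hBQ
  have h1 := (BT_of_le hT (sup_le (BT_le.trans hT.le) hQL) hS le_sup_left).2
  have h2 : Q ≤ normalizer (BT p T : Set G) := le_sup_right.trans h1
  have hBE : BT p T ≤ normalizer (E : Set G) := le_normalizer_of_commutator_le hcomm.le
  -- `Q` normalizes `E B`
  have h3 : ∀ q ∈ Q, cj q (E ⊔ BT p T) = E ⊔ BT p T := by
    intro q hq
    rw [← iSup_cj_eq hcomm]
    change (⨆ e : E, cj (e : G) (BT p T)).map (MulAut.conj q).toMonoidHom = _
    rw [Subgroup.map_iSup]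
    apply iSup_congr
    intro e
    change cj q (cj (e : G) (BT p T)) = cj (e : G) (BT p T)
    have h4 : (e : G)⁻¹ * q * e ∈ Q := by
      have := (mem_normalizer_iff.1 (inv_mem (hEQ e.2)) q).1 hq
      rwa [inv_inv] at this
    have h5 := cj_of_mem (h2 h4)
    calc cj q (cj (e : G) (BT p T)) = cj (e : G) (cj ((e : G)⁻¹ * q * e) (BT p T)) := by
          rw [← cj_mul, ← cj_mul]
          congr 1
          group
      _ = _ := by rw [h5]
  intro q hq
  rw [mem_normalizer_iff_cj]
  have h6 := pRes_map_conj (p := p) (E ⊔ BT p T) q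
  rw [show (E ⊔ BT p T).map (MulAut.conj q).toMonoidHom = E ⊔ BT p T from h3 q hq,
    pRes_sup_eq hres hTp hBE] at h6
  exact h6.symm

end Cfsg.Agent.H49.BB
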