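import Cfsg.Agent.H49.BB.SL2
import Cfsg.Agent.H49.BB.Pre
import Mathlib.Data.ZMod.Basic

/-!
# Irreducible sections
-/

set_option autoImplicit false
set_option linter.style.haveILetI false
set_option linter.unusedSectionVars false

namespace Cfsg.Agent.H49.BB

open Subgroup Cfsg
open scoped commutatorElement

section perm

open Equiv

theorem three_mem {n : ℕ} {X : AddSubgroup (Fin n → ZMod 2)}
    (hX : ∀ σ ∈ alternatingGroup (Fin n), ∀ v ∈ X, (fun i => v (σ⁻¹ i)) ∈ X)
    {a b c : Fin n} (hab : a ≠ b) (hac : a ≠ c) (hbc : b ≠ c) {v : Fin n → ZMod 2} (hv : v ∈ X) :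
    ∃ w ∈ X, w a = v b ∧ w b = v c ∧ w c = v a ∧ ∀ x, x ≠ a → x ≠ b → x ≠ c → w x = v x := by
  have h1 := hX _ (Perm.isThreeCycle_swap_mul_swap_same hab hac hbc).mem_alternatingGroup v hv
  have hinv : ∀ x y : Fin n, (swap a b * swap a c) x = y → (swap a b * swap a c)⁻¹ y = x := by
    intro x y h
    rw [Perm.inv_eq_iff_eq, h]
  refine ⟨_, h1, ?_, ?_, ?_, ?_⟩
  · have : (swap a b * swap a c) b = a := by
      rw [Perm.mul_apply, swap_apply_of_ne_of_ne hab.symm hbc, swap_apply_right]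
    change v ((swap a b * swap a c)⁻¹ a) = _
    rw [hinv _ _ this]
  · have : (swap a b * swap a c) c = b := by
      rw [Perm.mul_apply, swap_apply_right, swap_apply_left]
    change v ((swap a b * swap a c)⁻¹ b) = _
    rw [hinv _ _ this]
  · have : (swap a b * swap a c) a = c := by
      rw [Perm.mul_apply, swap_apply_left, swap_apply_of_ne_of_ne hac.symm hbc.symm]
    change v ((swap a b * swap a c)⁻¹ c) = _
    rw [hinv _ _ this]
  · intro x hxa hxb hxc
    have : (swap a b * swap a c) x = x := by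
      rw [Perm.mul_apply, swap_apply_of_ne_of_ne hxa hxc, swap_apply_of_ne_of_ne hxa hxb]
    change v ((swap a b * swap a c)⁻¹ x) = _
    rw [hinv _ _ this]

theorem zmod2 : ∀ x : ZMod 2, x = 0 ∨ x = 1 := by decide

theorem irr_perm {n : ℕ} (hn : Odd n) (X : AddSubgroup (Fin n → ZMod 2))
    (hsum : ∀ v ∈ X, ∑ i, v i = 0)
    (hX : ∀ σ ∈ alternatingGroup (Fin n), ∀ v ∈ X, (fun i => v (σ⁻¹ i)) ∈ X) :
    X = ⊥ ∨ ∀ v : Fin n → ZMod 2, ∑ i, v i = 0 → v ∈ X := by
  by_cases hbot : X = ⊥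
  · exact Or.inl hbot
  right
  obtain ⟨v, hv, hv0⟩ : ∃ v ∈ X, v ≠ 0 := by
    by_contra hcon
    push Not at hcon
    exact hbot (by rw [eq_bot_iff]; intro v hv; exact hcon v hv)
  obtain ⟨i, hi⟩ : ∃ i, v i = 1 := by
    by_contra hcon
    push Not at hcon
    apply hv0
    ext i
    rw [(zmod2 (v i)).resolve_right (hcon i)]; rfl
  obtain ⟨k, hki, hk⟩ : ∃ k, k ≠ i ∧ v k = 1 := by
    by_contra hcon
    push Not at hcon
    have h1 := hsum v hv
    rw [Finset.sum_eq_single i (fun k _ hk => (zmod2 (v k)).resolve_right (hcon k hk))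
      (fun h => absurd (Finset.mem_univ i) h), hi] at h1
    exact one_ne_zero h1
  obtain ⟨j, hj⟩ : ∃ j, v j = 0 := by
    by_contra hcon
    push Not at hcon
    have h1 := hsum v hv
    rw [Finset.sum_congr rfl (fun k _ => (zmod2 (v k)).resolve_left (hcon k)), Finset.sum_const,
      Finset.card_univ, Fintype.card_fin, nsmul_eq_mul, mul_one] at h1
    have h2 : ((n : ℕ) : ZMod 2) = 1 := by
      rw [ZMod.natCast_eq_one_iff_odd]
      exact hn
    rw [h2] at h1
    exact one_ne_zero h1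
  have hij : i ≠ j := by rintro rfl; rw [hi] at hj; exact one_ne_zero hj
  have hkj : k ≠ j := by rintro rfl; rw [hk] at hj; exact one_ne_zero hj
  -- the vector `e_k + e_j`
  have hkj' : (Pi.single k 1 + Pi.single j 1 : Fin n → ZMod 2) ∈ X := by
    obtain ⟨w, hw, h1, h2, h3, h4⟩ := three_mem hX hki.symm hij hkj hv
    have h5 : v + w = Pi.single k 1 + Pi.single j 1 := by
      ext x
      rw [Pi.add_apply, Pi.add_apply]
      by_cases hxi : x = i
      · subst hxi
        rw [h1, hi, hk, Pi.single_eq_of_ne hki.symm, Pi.single_eq_of_ne hij]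
        decide
      by_cases hxk : x = k
      · subst hxk
        rw [h2, hk, hj, Pi.single_eq_same, Pi.single_eq_of_ne hkj]
      by_cases hxj : x = j
      · subst hxj
        rw [h3, hi, hj, Pi.single_eq_same, Pi.single_eq_of_ne hkj.symm]
      rw [h4 x hxi hxk hxj, Pi.single_eq_of_ne hxk, Pi.single_eq_of_ne hxj]
      rcases zmod2 (v x) with h | h <;> rw [h] <;> decide
    rw [← h5]
    exact X.add_mem hv hw
  have hall : ∀ l, (Pi.single k 1 + Pi.single l 1 : Fin n → ZMod 2) ∈ X := by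
    intro l
    by_cases hlk : l = k
    · subst hlk
      have : (Pi.single l 1 + Pi.single l 1 : Fin n → ZMod 2) = 0 := by
        ext x
        rw [Pi.add_apply, Pi.zero_apply]
        rcases zmod2 ((Pi.single l 1 : Fin n → ZMod 2) x) with h | h <;> rw [h] <;> decide
      rw [this]
      exact X.zero_mem
    by_cases hlj : l = j
    · subst hlj; exact hkj'
    obtain ⟨w, hw, h1, h2, h3, h4⟩ := three_mem hX hlk hlj hkj hkj'
    have h5 : w = Pi.single k 1 + Pi.single l 1 := by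
      ext x
      rw [Pi.add_apply]
      by_cases hxl : x = l
      · subst hxl
        rw [h1, Pi.add_apply, Pi.single_eq_same, Pi.single_eq_same, Pi.single_eq_of_ne hlk,
          Pi.single_eq_of_ne hkj]
        decide
      by_cases hxk : x = k
      · subst hxk
        rw [h2, Pi.add_apply, Pi.single_eq_same, Pi.single_eq_same, Pi.single_eq_of_ne hkj.symm,
          Pi.single_eq_of_ne hxl]
        decide
      by_cases hxj : x = j
      · subst hxj
        rw [h3, Pi.add_apply, Pi.single_eq_of_ne hlk, Pi.single_eq_of_ne hlj,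
          Pi.single_eq_of_ne hxk, Pi.single_eq_of_ne hxl]
      rw [h4 x hxl hxk hxj, Pi.add_apply, Pi.single_eq_of_ne hxk, Pi.single_eq_of_ne hxj,
        Pi.single_eq_of_ne hxl]
    rw [← h5]
    exact hw
  intro u hu
  have h6 : u = ∑ l, (if u l = 0 then 0 else (Pi.single k 1 + Pi.single l 1 : Fin n → ZMod 2)) := by
    have h7 : ∀ l, (if u l = 0 then 0 else (Pi.single k 1 + Pi.single l 1 : Fin n → ZMod 2)) =
        Pi.single k (u l) + Pi.single l (u l) := by
      intro l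
      rcases zmod2 (u l) with h | h
      · rw [h]; simp
      · rw [h]; simp
    rw [Finset.sum_congr rfl (fun l _ => h7 l), Finset.sum_add_distrib]
    have h8 : ∑ l, (Pi.single k (u l) : Fin n → ZMod 2) = 0 := by
      ext x
      rw [Finset.sum_apply, Pi.zero_apply]
      by_cases hx : x = k
      · subst hx
        simp only [Pi.single_eq_same]
        exact hu
      · simp [Pi.single_eq_of_ne hx]
    rw [h8, zero_add]
    exact (Finset.univ_sum_single u).symm
  rw [h6]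
  refine X.sum_mem fun l _ => ?_
  split_ifs
  · exact X.zero_mem
  · exact hall l

end perm

section section_

variable {G : Type*} [Group G]

/-- `E` acts irreducibly on `U / U₀`. -/
structure IrrOn (E U U₀ : Subgroup G) : Prop where
  nE : E ≤ normalizer (U : Set G)
  le : U₀ ≤ U
  irr : ∀ X : Subgroup G, U₀ ≤ X → X ≤ U → E ≤ normalizer (X : Set G) → X = U₀ ∨ X = U

theorem IrrOn.of_SL2 {F : Type*} [Field F] {E U U₀ : Subgroup G}
    (h : ActsAsSL2OnSection F (commutator (Matrix.SpecialLinearGroup (Fin 2) F)) E U U₀) :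
    IrrOn E U U₀ := by
  obtain ⟨h1, h2, ρ, ψ, hρ, hψ, hker, hact⟩ := h
  refine ⟨h1, h2, fun X hX1 hX2 hX3 => ?_⟩
  let Y : AddSubgroup (Fin 2 → F) := Subgroup.toAddSubgroup ((X.subgroupOf U).map ψ)
  have hYmem : ∀ v : Fin 2 → F, v ∈ Y ↔ ∃ u : U, (u : G) ∈ X ∧ Multiplicative.toAdd (ψ u) = v := by
    intro v
    constructor
    · rintro ⟨u, hu, huv⟩
      exact ⟨u, hu, by rw [huv]; rfl⟩
    · rintro ⟨u, hu, rfl⟩
      exact ⟨u, hu, rfl⟩
  have hinv : ∀ g ∈ commutator (Matrix.SpecialLinearGroup (Fin 2) F), ∀ v ∈ Y,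
      (g : Matrix (Fin 2) (Fin 2) F).mulVec v ∈ Y := by
    intro g hg v hv
    rw [← hρ] at hg
    obtain ⟨e, rfl⟩ := hg
    obtain ⟨u, hu, rfl⟩ := (hYmem v).1 hv
    obtain ⟨w, hw1, hw2⟩ := hact e u
    refine (hYmem _).2 ⟨w, ?_, hw2⟩
    rw [hw1]
    exact (mem_normalizer_iff.1 (hX3 e.2) _).1 hu
  rcases irr_SL2 Y hinv with hY | hY
  · left
    apply le_antisymm _ hX1
    intro x hx
    have h3 : Multiplicative.toAdd (ψ ⟨x, hX2 hx⟩) ∈ Y := (hYmem _).2 ⟨_, hx, rfl⟩
    rw [hY, AddSubgroup.mem_bot] at h3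
    exact (hker ⟨x, hX2 hx⟩).1 (Multiplicative.toAdd.injective h3)
  · right
    apply le_antisymm hX2
    intro u hu
    have h3 : Multiplicative.toAdd (ψ ⟨u, hu⟩) ∈ Y := by rw [hY]; trivial
    obtain ⟨x, hx, hxu⟩ := (hYmem _).1 h3
    have h4 : ψ (x⁻¹ * ⟨u, hu⟩) = 1 := by
      rw [map_mul, map_inv, Multiplicative.toAdd.injective hxu, inv_mul_cancel]
    have h5 := hX1 ((hker _).1 h4)
    have h6 := mul_mem hx h5
    rw [Subgroup.coe_mul, Subgroup.coe_inv, mul_inv_cancel_left] at h6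
    exact h6

theorem IrrOn.of_perm {m : ℕ} {E U U₀ : Subgroup G}
    (h : ActsAsOddPermModuleOnSection (2 * m + 1) (alternatingGroup (Fin (2 * m + 1))) E U U₀) :
    IrrOn E U U₀ := by
  obtain ⟨h1, h2, ρ, ψ, hρ, hsum, hψ, hker, hact⟩ := h
  refine ⟨h1, h2, fun X hX1 hX2 hX3 => ?_⟩
  let Y : AddSubgroup (Fin (2 * m + 1) → ZMod 2) :=
    Subgroup.toAddSubgroup ((X.subgroupOf U).map ψ)
  have hYmem : ∀ v : Fin (2 * m + 1) → ZMod 2,
      v ∈ Y ↔ ∃ u : U, (u : G) ∈ X ∧ Multiplicative.toAdd (ψ u) = v := by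
    intro v
    constructor
    · rintro ⟨u, hu, huv⟩
      exact ⟨u, hu, by rw [huv]; rfl⟩
    · rintro ⟨u, hu, rfl⟩
      exact ⟨u, hu, rfl⟩
  have hinv : ∀ σ ∈ alternatingGroup (Fin (2 * m + 1)), ∀ v ∈ Y, (fun i => v (σ⁻¹ i)) ∈ Y := by
    intro g hg v hv
    rw [← hρ] at hg
    obtain ⟨e, rfl⟩ := hg
    obtain ⟨u, hu, rfl⟩ := (hYmem v).1 hv
    obtain ⟨w, hw1, hw2⟩ := hact e u
    refine (hYmem _).2 ⟨w, ?_, funext hw2⟩
    rw [hw1]
    exact (mem_normalizer_iff.1 (hX3 e.2) _).1 hu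
  rcases irr_perm ⟨m, rfl⟩ Y (fun v hv => by
    obtain ⟨u, _, rfl⟩ := (hYmem v).1 hv
    exact hsum u) hinv with hY | hY
  · left
    apply le_antisymm _ hX1
    intro x hx
    have h3 : Multiplicative.toAdd (ψ ⟨x, hX2 hx⟩) ∈ Y := (hYmem _).2 ⟨_, hx, rfl⟩
    rw [hY, AddSubgroup.mem_bot] at h3
    exact (hker ⟨x, hX2 hx⟩).1 (Multiplicative.toAdd.injective h3)
  · right
    apply le_antisymm hX2
    intro u hu
    have h3 : Multiplicative.toAdd (ψ ⟨u, hu⟩) ∈ Y := hY _ (hsum _)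
    obtain ⟨x, hx, hxu⟩ := (hYmem _).1 h3
    have h4 : ψ (x⁻¹ * ⟨u, hu⟩) = 1 := by
      rw [map_mul, map_inv, Multiplicative.toAdd.injective hxu, inv_mul_cancel]
    have h5 := hX1 ((hker _).1 h4)
    have h6 := mul_mem hx h5
    rw [Subgroup.coe_mul, Subgroup.coe_inv, mul_inv_cancel_left] at h6
    exact h6

end section_

end Cfsg.Agent.H49.BB
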