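import Cfsg.Agent.H49.BB.Base
import Mathlib.Tactic.LinearCombination
import Mathlib.Tactic.FieldSimp

/-!
# Irreducibility of the natural module for `SL₂(F)'` and of the even weight module
-/

set_option autoImplicit false
set_option linter.style.haveILetI false
set_option linter.unusedSectionVars false

namespace Cfsg.Agent.H49.BB

open Subgroup Cfsg
open scoped commutatorElement

section sl2

variable {F : Type*} [Field F]

/-- upper transvections -/
def tU (b : F) : Matrix.SpecialLinearGroup (Fin 2) F := ⟨!![1, b; 0, 1], by simp⟩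

/-- lower transvections -/
def tL (b : F) : Matrix.SpecialLinearGroup (Fin 2) F := ⟨!![1, 0; b, 1], by simp⟩

def wS : Matrix.SpecialLinearGroup (Fin 2) F := ⟨!![0, 1; -1, 0], by simp⟩

def dS (l : F) (hl : l ≠ 0) : Matrix.SpecialLinearGroup (Fin 2) F :=
  ⟨!![l, 0; 0, l⁻¹], by simp [hl]⟩

def mA (a : F) : Matrix.SpecialLinearGroup (Fin 2) F := ⟨!![1 + a ^ 2, a; a, 1], by
  rw [Matrix.det_fin_two_of]; ring⟩

theorem coe_tU (b : F) : ((tU b : Matrix.SpecialLinearGroup (Fin 2) F) : Matrix (Fin 2) (Fin 2) F) =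
    !![1, b; 0, 1] := rfl

theorem coe_tL (b : F) : ((tL b : Matrix.SpecialLinearGroup (Fin 2) F) : Matrix (Fin 2) (Fin 2) F) =
    !![1, 0; b, 1] := rfl

theorem coe_wS : ((wS : Matrix.SpecialLinearGroup (Fin 2) F) : Matrix (Fin 2) (Fin 2) F) =
    !![0, 1; -1, 0] := rfl

theorem coe_dS (l : F) (hl : l ≠ 0) :
    ((dS l hl : Matrix.SpecialLinearGroup (Fin 2) F) : Matrix (Fin 2) (Fin 2) F) =
    !![l, 0; 0, l⁻¹] := rfl

theorem coe_mA (a : F) : ((mA a : Matrix.SpecialLinearGroup (Fin 2) F) : Matrix (Fin 2) (Fin 2) F) =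
    !![1 + a ^ 2, a; a, 1] := rfl

theorem mA_mem (a : F) : mA a ∈ commutator (Matrix.SpecialLinearGroup (Fin 2) F) := by
  have h : mA a = ⁅tU a, wS⁆ := by
    rw [commutatorElement_def, eq_mul_inv_iff_mul_eq, eq_mul_inv_iff_mul_eq]
    apply Subtype.ext
    rw [Matrix.SpecialLinearGroup.coe_mul, Matrix.SpecialLinearGroup.coe_mul,
      Matrix.SpecialLinearGroup.coe_mul, coe_tU, coe_wS, coe_mA, Matrix.mul_fin_two,
      Matrix.mul_fin_two, Matrix.mul_fin_two]
    ext i j
    fin_cases i <;> fin_cases j <;> simp <;> ring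
  rw [h]
  exact commutator_mem_commutator (mem_top _) (mem_top _)

theorem tU_mem {l : F} (hl : l ≠ 0) (hl2 : l ^ 2 ≠ 1) (b : F) :
    tU b ∈ commutator (Matrix.SpecialLinearGroup (Fin 2) F) := by
  have h0 : l ^ 2 - 1 ≠ 0 := sub_ne_zero.2 hl2
  have h : tU b = ⁅dS l hl, tU (b / (l ^ 2 - 1))⁆ := by
    rw [commutatorElement_def, eq_mul_inv_iff_mul_eq, eq_mul_inv_iff_mul_eq]
    apply Subtype.ext
    rw [Matrix.SpecialLinearGroup.coe_mul, Matrix.SpecialLinearGroup.coe_mul,
      Matrix.SpecialLinearGroup.coe_mul, coe_tU, coe_tU, coe_dS, Matrix.mul_fin_two,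
      Matrix.mul_fin_two, Matrix.mul_fin_two]
    ext i j
    fin_cases i <;> fin_cases j <;> simp
    field_simp
    ring
  rw [h]
  exact commutator_mem_commutator (mem_top _) (mem_top _)

theorem tL_mem {l : F} (hl : l ≠ 0) (hl2 : l ^ 2 ≠ 1) (b : F) :
    tL b ∈ commutator (Matrix.SpecialLinearGroup (Fin 2) F) := by
  have h00 : 1 - l ^ 2 ≠ 0 := sub_ne_zero.2 hl2.symm
  have h : tL b = ⁅dS l hl, tL (b * l ^ 2 / (1 - l ^ 2))⁆ := by
    rw [commutatorElement_def, eq_mul_inv_iff_mul_eq, eq_mul_inv_iff_mul_eq]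
    apply Subtype.ext
    rw [Matrix.SpecialLinearGroup.coe_mul, Matrix.SpecialLinearGroup.coe_mul,
      Matrix.SpecialLinearGroup.coe_mul, coe_tL, coe_tL, coe_dS, Matrix.mul_fin_two,
      Matrix.mul_fin_two, Matrix.mul_fin_two]
    ext i j
    fin_cases i <;> fin_cases j <;> simp
    field_simp
    ring
  rw [h]
  exact commutator_mem_commutator (mem_top _) (mem_top _)

theorem mulVec_tU (b : F) (v : Fin 2 → F) :
    ((tU b : Matrix.SpecialLinearGroup (Fin 2) F) : Matrix (Fin 2) (Fin 2) F).mulVec v =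
      ![v 0 + b * v 1, v 1] := by
  ext i
  fin_cases i <;> simp [tU, Matrix.mulVec, dotProduct, Fin.sum_univ_two]

theorem mulVec_tL (b : F) (v : Fin 2 → F) :
    ((tL b : Matrix.SpecialLinearGroup (Fin 2) F) : Matrix (Fin 2) (Fin 2) F).mulVec v =
      ![v 0, b * v 0 + v 1] := by
  ext i
  fin_cases i <;> simp [tL, Matrix.mulVec, dotProduct, Fin.sum_univ_two]

theorem mulVec_mA (a : F) (v : Fin 2 → F) :
    ((mA a : Matrix.SpecialLinearGroup (Fin 2) F) : Matrix (Fin 2) (Fin 2) F).mulVec v =
      ![(1 + a ^ 2) * v 0 + a * v 1, a * v 0 + v 1] := by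
  ext i
  fin_cases i <;> simp [mA, Matrix.mulVec, dotProduct, Fin.sum_univ_two]

theorem irr_SL2 (X : AddSubgroup (Fin 2 → F))
    (hX : ∀ g ∈ commutator (Matrix.SpecialLinearGroup (Fin 2) F), ∀ v ∈ X,
      (g : Matrix (Fin 2) (Fin 2) F).mulVec v ∈ X) : X = ⊥ ∨ X = ⊤ := by
  by_cases hbot : X = ⊥
  · exact Or.inl hbot
  right
  obtain ⟨v, hv, hv0⟩ : ∃ v ∈ X, v ≠ 0 := by
    by_contra hcon
    push Not at hcon
    exact hbot (by rw [eq_bot_iff]; intro v hv; exact hcon v hv)
  have hmA : ∀ a : F, ∀ v ∈ X, (![a ^ 2 * v 0 + a * v 1, a * v 0] : Fin 2 → F) ∈ X := by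
    intro a v hv
    have h1 := X.sub_mem (hX _ (mA_mem a) v hv) hv
    rw [mulVec_mA] at h1
    have h2 : (![(1 + a ^ 2) * v 0 + a * v 1, a * v 0 + v 1] : Fin 2 → F) - v =
        ![a ^ 2 * v 0 + a * v 1, a * v 0] := by
      ext i
      fin_cases i <;> simp <;> ring
    rwa [h2] at h1
  -- it suffices to find both coordinate axes
  have hfin : (∀ c : F, (![c, 0] : Fin 2 → F) ∈ X) → (∀ c : F, (![0, c] : Fin 2 → F) ∈ X) → X = ⊤ := by
    intro h1 h2
    rw [eq_top_iff]
    intro w _
    have h3 := X.add_mem (h1 (w 0)) (h2 (w 1))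
    have h4 : (![w 0, 0] : Fin 2 → F) + ![0, w 1] = w := by
      ext i
      fin_cases i <;> simp
    rwa [h4] at h3
  by_cases hl : ∃ l : F, l ≠ 0 ∧ l ^ 2 ≠ 1
  · obtain ⟨l, hl0, hl2⟩ := hl
    have hu : ∀ b : F, ∀ v ∈ X, (![b * v 1, 0] : Fin 2 → F) ∈ X := by
      intro b v hv
      have h1 := X.sub_mem (hX _ (tU_mem hl0 hl2 b) v hv) hv
      rw [mulVec_tU] at h1
      have h2 : (![v 0 + b * v 1, v 1] : Fin 2 → F) - v = ![b * v 1, 0] := by
        ext i
        fin_cases i <;> simp
      rwa [h2] at h1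
    have hlw : ∀ b : F, ∀ v ∈ X, (![0, b * v 0] : Fin 2 → F) ∈ X := by
      intro b v hv
      have h1 := X.sub_mem (hX _ (tL_mem hl0 hl2 b) v hv) hv
      rw [mulVec_tL] at h1
      have h2 : (![v 0, b * v 0 + v 1] : Fin 2 → F) - v = ![0, b * v 0] := by
        ext i
        fin_cases i <;> simp
      rwa [h2] at h1
    by_cases hy : v 1 = 0
    · have hx : v 0 ≠ 0 := by
        intro hx
        apply hv0
        ext i
        fin_cases i
        · exact hx
        · exact hy
      have h1 : ∀ c : F, (![0, c] : Fin 2 → F) ∈ X := by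
        intro c
        have := hlw (c / v 0) v hv
        rwa [div_mul_cancel₀ _ hx] at this
      refine hfin (fun c => ?_) h1
      have := hu c _ (h1 1)
      simpa using this
    · have h1 : ∀ c : F, (![c, 0] : Fin 2 → F) ∈ X := by
        intro c
        have := hu (c / v 1) v hv
        rwa [div_mul_cancel₀ _ hy] at this
      refine hfin h1 (fun c => ?_)
      have := hlw c _ (h1 1)
      simpa using this
  · push Not at hl
    have hsq : ∀ l : F, l = 0 ∨ l = 1 ∨ l = -1 := by
      intro l
      by_cases h : l = 0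
      · exact Or.inl h
      · right
        have h1 := hl l h
        have h2 : (l - 1) * (l + 1) = 0 := by linear_combination h1
        rcases mul_eq_zero.1 h2 with h3 | h3
        · exact Or.inl (sub_eq_zero.1 h3)
        · exact Or.inr (eq_neg_of_add_eq_zero_left h3)
    have hone : (![1, 0] : Fin 2 → F) ∈ X → (![0, 1] : Fin 2 → F) ∈ X → X = ⊤ := by
      intro h1 h2
      refine hfin (fun c => ?_) (fun c => ?_)
      · rcases hsq c with rfl | rfl | rfl
        · have : (![0, 0] : Fin 2 → F) = 0 := by ext i; fin_cases i <;> rfl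
          rw [this]; exact X.zero_mem
        · exact h1
        · have := X.neg_mem h1
          have h3 : -(![1, 0] : Fin 2 → F) = ![-1, 0] := by ext i; fin_cases i <;> simp
          rwa [h3] at this
      · rcases hsq c with rfl | rfl | rfl
        · have : (![0, 0] : Fin 2 → F) = 0 := by ext i; fin_cases i <;> rfl
          rw [this]; exact X.zero_mem
        · exact h2
        · have := X.neg_mem h2
          have h3 : -(![0, 1] : Fin 2 → F) = ![0, -1] := by ext i; fin_cases i <;> simp
          rwa [h3] at this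
    have hstep : ∀ v ∈ X, v 0 ≠ 0 → v 1 = 0 → X = ⊤ := by
      intro v hv h0 h1
      have h10 : (![1, 0] : Fin 2 → F) ∈ X := by
        rcases hsq (v 0) with h | h | h
        · exact absurd h h0
        · have : v = ![1, 0] := by ext i; fin_cases i <;> simp [h, h1]
          rwa [this] at hv
        · have : -v = ![1, 0] := by ext i; fin_cases i <;> simp [h, h1]
          rw [← this]; exact X.neg_mem hv
      have h2 := hmA 1 _ h10
      have h3 : (![(1 : F) ^ 2 * (![1, 0] : Fin 2 → F) 0 + 1 * (![1, 0] : Fin 2 → F) 1,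
          1 * (![1, 0] : Fin 2 → F) 0] : Fin 2 → F) - ![1, 0] = ![0, 1] := by
        ext i; fin_cases i <;> simp
      have h4 := X.sub_mem h2 h10
      rw [h3] at h4
      exact hone h10 h4
    by_cases hx : v 0 = 0
    · have hy : v 1 ≠ 0 := by
        intro hy
        apply hv0
        ext i
        fin_cases i
        · exact hx
        · exact hy
      apply hstep _ (hmA 1 v hv)
      · simpa [hx] using hy
      · simp [hx]
    · by_cases hc : (1 : F) = -1
      · -- two elements
        have h2 : ∀ l : F, l ≠ 0 → l = 1 := by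
          intro l hl
          rcases hsq l with h | h | h
          · exact absurd h hl
          · exact h
          · rw [h, ← hc]
        have h11 : (1 : F) + 1 = 0 := by
          nth_rewrite 2 [hc]; ring
        have h0 := h2 _ hx
        by_cases hy : v 1 = 0
        · exact hstep v hv hx hy
        · have h1 := h2 _ hy
          have h3 := hmA 1 v hv
          have h4 : (![(1 : F) ^ 2 * v 0 + 1 * v 1, 1 * v 0] : Fin 2 → F) - v = ![1, 0] := by
            ext i
            fin_cases i
            · simp [h0, h1]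
            · simp [h0, h1]
          have h5 := X.sub_mem h3 hv
          rw [h4] at h5
          exact hstep _ h5 (by simp) (by simp)
      · have h3 : (1 : F) + 1 + 1 = 0 := by
          rcases hsq ((1 : F) + 1) with h | h | h
          · exact absurd (eq_neg_of_add_eq_zero_left h) hc
          · have : (1 : F) = 0 := by linear_combination h
            exact absurd this one_ne_zero
          · rw [h]; ring
        have h4 := X.add_mem (hmA 1 v hv) (hmA (-1) v hv)
        have h5 : (![(1 : F) ^ 2 * v 0 + 1 * v 1, 1 * v 0] : Fin 2 → F) +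
            ![(-1 : F) ^ 2 * v 0 + -1 * v 1, -1 * v 0] = ![-(v 0), 0] := by
          ext i
          fin_cases i
          · simp
            linear_combination (v 0) * h3
          · simp
        rw [h5] at h4
        exact hstep _ h4 (by simpa using hx) (by simp)

end sl2

end Cfsg.Agent.H49.BB
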